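import Cfsg.Agent.H548.BS.Rows
import Cfsg.Agent.H806.Bs.GenB
import Cfsg.Agent.H24.Bs.S31
import Cfsg.Agent.H450.Bs.GenSU
import Cfsg.Agent.H984.Bs.OmegaGen
import Cfsg.Agent.H845.Bs.SLBlkMain
import Cfsg.Agent.H181.Bs.SpRed
import Cfsg.Agent.H59.Bs.CountSp
import Cfsg.Agent.H59.Bs.SpMinus
import Cfsg.Agent.H557.Bs.SU
import Cfsg.Agent.H978.Bs.SU
import Cfsg.Agent.H881.Bs.HermMinus
import Cfsg.Agent.H881.Bs.HermPlus

/-!
# S5733: the pieces of the team in the form of `H847.Bs.Stmts`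
-/

set_option autoImplicit false

namespace Cfsg.Agent.H548.BS

open Module Cfsg.Agent.H851.Dg Cfsg.Agent.H847.Bs
open QuadraticMap Cfsg.Agent.LieClassical.OrthCore

/-- totally isotropic subspaces are proper -/
theorem ti_ne_top {F V : Type} [Field F] [AddCommGroup V] [Module F V] {Φ : Frm F V} (hΦ : Φ.Nd)
    (hn : 1 ≤ finrank F V) {Y : Submodule F V} (hY : Φ.TI Y) : Y ≠ ⊤ := by
  rintro rfl
  have : Nontrivial V := Module.nontrivial_of_finrank_pos (R := F) (by omega)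
  obtain ⟨x, hx⟩ := exists_ne (0 : V)
  exact hx (hΦ x fun y => hY.1 x trivial y trivial)

theorem blockSp : H181.Bs.BlockSp.{0, 0} := fun F V _ _ _ _ _ Φ hΦ j hj hd => H59.Bs.sp_minus hΦ hj hd

theorem countSp : H181.Bs.CountSp.{0, 0} := by
  obtain ⟨c, hc, K₀, h⟩ := H59.Bs.s10
  exact ⟨c, hc, K₀, fun F V _ _ _ _ _ Φ hΦ n K hK hn hKn => h F V Φ n K hΦ hK hn hKn⟩

theorem s25 : S25 := by
  obtain ⟨c, hc, n₀, h⟩ := H181.Bs.sp_red blockSp countSp
  refine ⟨c, hc, n₀ + 1, fun F V _ _ _ _ _ Φ hΦ hn Y hY0 hY => ?_⟩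
  exact h F V Φ hΦ (by omega) Y hY0 (ti_ne_top hΦ.nd (by omega) hY) (Or.inl hY)

theorem s28s : S28s := by
  obtain ⟨c, hc, n₀, h⟩ := H181.Bs.sp_red blockSp countSp
  exact ⟨c, hc, n₀, fun F V _ _ _ _ _ Φ hΦ hn Y hY0 hY1 hY => h F V Φ hΦ hn Y hY0 hY1 (Or.inr hY)⟩

theorem hBm : H557.Bs.HBm.{0, 0} := fun r F V _ _ _ _ _ Φ hΦ d hd ho => H881.Bs.herm_minus hΦ hd ho

theorem hAdj : H557.Bs.HAdj.{0, 0} := fun r F V _ _ _ _ _ Φ hΦ d hd ho h9 κ hκ => H881.Bs.herm_adj hΦ hd ho h9 hκ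

theorem hCnt (h11 : S11) : ∃ c : ℝ, 0 < c ∧ ∃ K₀ : ℕ, H557.Bs.HCnt.{0, 0} c K₀ := by
  obtain ⟨c, hc, K₀, h⟩ := h11
  exact ⟨c, hc, K₀, fun r F V _ _ _ _ _ Φ hΦ n K hK hn hKn => h F V r Φ n K hΦ hK hn hKn⟩

theorem su_all (h11 : S11) : ∃ c : ℝ, 0 < c ∧ ∃ n₀ : ℕ, ∀ (F V : Type) [Field F] [Finite F] [AddCommGroup V]
    [Module F V] [Module.Finite F V] (r : ℕ) (Φ : Frm F V), IsHerm r Φ → n₀ ≤ Module.finrank F V →
    ∀ Y : Submodule F V, Y ≠ ⊥ → Y ≠ ⊤ → c * (Nat.card ↥(Φ.Iso ⊓ slV F V) : ℝ) ≤ noInv (Φ.Iso ⊓ slV F V) Y := by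
  obtain ⟨c, hc, n₀, h⟩ := H557.Bs.su_red (hCnt h11) hBm hAdj
  refine ⟨c, hc, n₀, fun F V _ _ _ _ _ r Φ hΦ hn Y hY0 hY1 => (h r F V Φ hΦ hn Y hY0 hY1).trans ?_⟩
  have : Finite V := Module.finite_of_finite F
  have : Finite (V ≃ₗ[F] V) := Finite.of_injective (fun g => (g : V → V)) DFunLike.coe_injective
  have h2 : Nat.card {x : V ≃ₗ[F] V // x ∈ Φ.Iso ⊓ slV F V ∧
        ∀ g : V ≃ₗ[F] V, ¬ Inv x (Y.map (g : V →ₗ[F] V))} ≤ noInv (Φ.Iso ⊓ slV F V) Y :=
    Nat.card_le_card_of_injective (fun x : {x : V ≃ₗ[F] V // x ∈ Φ.Iso ⊓ slV F V ∧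
        ∀ g : V ≃ₗ[F] V, ¬ Inv x (Y.map (g : V →ₗ[F] V))} =>
      (⟨x.1, x.2.1, fun g _ => x.2.2 g⟩ : {x : V ≃ₗ[F] V // x ∈ Φ.Iso ⊓ slV F V ∧
        ∀ g ∈ Φ.Iso ⊓ slV F V, ¬ Inv x (Y.map (g : V →ₗ[F] V))})) fun a b hab => Subtype.ext (Subtype.mk.inj hab)
  exact_mod_cast h2

theorem s26_of (h11 : S11) : S26 := by
  obtain ⟨c, hc, n₀, h⟩ := su_all h11
  exact ⟨c, hc, n₀ + 1, fun F V _ _ _ _ _ r Φ hΦ hn Y hY0 hY =>
    h F V r Φ hΦ (by omega) Y hY0 (ti_ne_top hΦ.nd (by omega) hY)⟩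

theorem s28u_of (h11 : S11) : S28u := by
  obtain ⟨c, hc, n₀, h⟩ := su_all h11
  exact ⟨c, hc, n₀, fun F V _ _ _ _ _ r Φ hΦ hn Y hY0 hY1 _ => h F V r Φ hΦ hn Y hY0 hY1⟩

theorem s22_of (h11 : S11) : S22 :=
  H978.Bs.s22 h11 fun r F V _ _ _ _ _ Φ hΦ d hd ho h9 κ hκ => H881.Bs.herm_adj hΦ hd ho h9 hκ

theorem s32 : S32 := fun F V _ _ _ _ _ r Φ H W U hΦ hH hirr hd h4 hon => H450.Bs.gen_su' hΦ hH hirr hd h4 hon

theorem s33 : S33 := fun F V _ _ _ _ _ Q H W hQ hH hirr hW h8 hhas =>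
  H984.Bs.gen_omega hQ (hH.trans E_le_O) hirr hW h8 hhas

/-- the linear row from the trick -/
theorem row_sl' (h0 : S40a) (h1 : S20) : RowSL := by
  obtain ⟨c1, hc1, n1, h1⟩ := h1 h0
  obtain ⟨c3, hc3, n3, h3⟩ := H845.Bs.bs34
  refine ⟨min (min c1 c3) (1 / 16), lt_min (lt_min hc1 hc3) (by norm_num), max (max n1 n3) 5, ?_⟩
  intro F V _ _ _ _ _ hn H hH hne
  have hn1 : n1 ≤ finrank F V := (le_max_left _ _).trans ((le_max_left _ _).trans hn)
  have hn3 : n3 ≤ finrank F V := (le_max_right _ _).trans ((le_max_left _ _).trans hn)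
  have hn5 : 5 ≤ finrank F V := (le_max_right _ _).trans hn
  have : Finite V := Module.finite_of_finite F
  have hc : (0 : ℝ) ≤ (Nat.card (slV F V) : ℝ) := Nat.cast_nonneg _
  by_contra hcon
  push Not at hcon
  have hlt1 : (ndV (slV F V) H : ℝ) < c1 * Nat.card (slV F V) :=
    hcon.trans_le (mul_le_mul_of_nonneg_right ((min_le_left _ _).trans (min_le_left _ _)) hc)
  have hlt3 : (ndV (slV F V) H : ℝ) < c3 * Nat.card (slV F V) :=
    hcon.trans_le (mul_le_mul_of_nonneg_right ((min_le_left _ _).trans (min_le_right _ _)) hc)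
  have hlt2 : (ndV (slV F V) H : ℝ) < 1 / 16 * Nat.card (slV F V) :=
    hcon.trans_le (mul_le_mul_of_nonneg_right (min_le_right _ _) hc)
  obtain ⟨W, U, hWU, hW, hH1⟩ := h1 F V hn1 H hH hlt1
  by_cases hirr : IrrG H
  · -- a plane in `W`
    obtain ⟨W1, W2, hd, hW1, hsup⟩ : ∃ W1 W2 : Submodule F V, Disjoint W1 W2 ∧ finrank F W1 = 2 ∧ W1 ⊔ W2 = W := by
      let b := Module.finBasisOfFinrankEq F W hW
      have hli : LinearIndependent F (fun i : Fin 3 => (b i : V)) :=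
        b.linearIndependent.map' W.subtype (Submodule.ker_subtype W)
      have hspan : Submodule.span F (Set.range fun i : Fin 3 => (b i : V)) = W := by
        have h5 : (Set.range fun i : Fin 3 => (b i : V)) = W.subtype '' (Set.range b) := by
          rw [← Set.range_comp]; rfl
        rw [h5, ← Submodule.map_span, b.span_eq, Submodule.map_top, Submodule.range_subtype]
      refine ⟨Submodule.span F ((fun i : Fin 3 => (b i : V)) '' {0, 1}),
        Submodule.span F ((fun i : Fin 3 => (b i : V)) '' {2}), ?_, ?_, ?_⟩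
      · refine hli.disjoint_span_image ?_
        rw [Set.disjoint_left]
        rintro i (rfl | rfl) h
        · exact absurd (Set.mem_singleton_iff.1 h) (by decide)
        · exact absurd (Set.mem_singleton_iff.1 h) (by decide)
      · have h5 : ((fun i : Fin 3 => (b i : V)) '' {0, 1}) = Set.range (fun i : Fin 2 => (b (Fin.castSucc i) : V)) := by
          ext x
          simp only [Set.mem_image, Set.mem_insert_iff, Set.mem_singleton_iff, exists_eq_or_imp, exists_eq_left,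
            Set.mem_range, Fin.exists_fin_two]
          rfl
        have h6 : LinearIndependent F (fun i : Fin 2 => (b (Fin.castSucc i) : V)) :=
          hli.comp _ (Fin.castSucc_injective 2)
        rw [h5, finrank_span_eq_card h6, Fintype.card_fin]
      · have h6 : ({0, 1} ∪ {2} : Set (Fin 3)) = Set.univ := by
          ext i
          fin_cases i <;> simp
        rw [← Submodule.span_union, ← Set.image_union, h6, Set.image_univ]
        exact hspan
    have hc2 : IsCompl W1 (W2 ⊔ U) := by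
      constructor
      · rw [Submodule.disjoint_def]
        intro x hx hx2
        obtain ⟨y, hy, u, hu, rfl⟩ := Submodule.mem_sup.1 hx2
        have h5 : u ∈ W := by
          have h6 : y + u - y ∈ W := W.sub_mem (hsup ▸ Submodule.mem_sup_left hx) (hsup ▸ Submodule.mem_sup_right hy)
          rwa [add_sub_cancel_left] at h6
        have h6 : u = 0 := Submodule.disjoint_def.1 hWU.disjoint u h5 hu
        rw [h6, add_zero] at hx ⊢
        exact Submodule.disjoint_def.1 hd y hx hy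
      · rw [codisjoint_iff, ← sup_assoc, hsup]
        exact hWU.sup_eq_top
    have hon : HasOn (slV F V) H W1 (W2 ⊔ U) := by
      intro g hg hgW hgU
      refine hH1 g hg ?_ fun u hu => hgU u (Submodule.mem_sup_right hu)
      intro w hw
      rw [← hsup] at hw ⊢
      obtain ⟨y, hy, z, hz, rfl⟩ := Submodule.mem_sup.1 hw
      rw [map_add, hgU z (Submodule.mem_sup_left hz)]
      exact Submodule.add_mem_sup (hgW y hy) hz
    rcases H806.Bs.gen_sl hirr hc2 hW1 hon with h | h | h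
    · exact hne (le_antisymm hH h)
    · exact absurd ((h3 F V hn3 H hH).1 h) (not_le.2 hlt3)
    · exact absurd ((h3 F V hn3 H hH).2 h) (not_le.2 hlt3)
  · unfold IrrG at hirr
    push Not at hirr
    obtain ⟨Y, hY, hY0, hY1⟩ := hirr
    have hk : 1 ≤ finrank F Y := by
      rw [Nat.one_le_iff_ne_zero]
      exact fun h => hY0 (Submodule.finrank_eq_zero.1 h)
    have hk' : finrank F Y < finrank F V := Submodule.finrank_lt hY1
    have h4 := sl_reducible hn5 hk hk'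
    have h5 : Nat.card {x // x ∈ slV F V ∧ ∀ Z : Submodule F V, Inv x Z → finrank F Z ≠ finrank F Y} ≤
        ndV (slV F V) H := by
      refine ndV_ge (P := fun x => x ∈ slV F V ∧ ∀ Z : Submodule F V, Inv x Z → finrank F Z ≠ finrank F Y) ?_
      rintro x ⟨hx, hx2⟩
      refine ⟨hx, fun g hg hgx => ?_⟩
      exact hx2 _ (inv_conj (hY _ hgx)) (LinearEquiv.finrank_map_eq (g⁻¹ : V ≃ₗ[F] V) Y)
    have h6 : (Nat.card {x // x ∈ slV F V ∧ ∀ Z : Submodule F V, Inv x Z → finrank F Z ≠ finrank F Y} : ℝ) ≤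
        ndV (slV F V) H := by exact_mod_cast h5
    exact absurd (h4.trans h6) (not_le.2 hlt2)

end Cfsg.Agent.H548.BS
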