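import Cfsg.Agent.H2.Bs.BS21
import Cfsg.Agent.H181.Bs.SpRed
import Cfsg.Agent.H59.Bs.CountSp
import Cfsg.Agent.H847.Bs.Stmts

/-!
# S5733, BS21 with a base of dimension four (after `H2.Bs.core`, helper2)
-/

set_option autoImplicit false

namespace Cfsg.Agent.H548.BS

open Cfsg.Agent.H847.Bs Module Cfsg.Agent.H2.Bs
open Cfsg.Agent.H851.Dg (nd nd_comap_equiv)

section core

variable {F : Type} [Field F] {V : Type} [AddCommGroup V] [Module F V] {Φ : Frm F V} {W U : Submodule F V}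

theorem core4 [Finite F] [FiniteDimensional F V] (hΦ : IsSp Φ) (htrick : TrickP.{0}) (h : Φ.Dec W U)
    {K d : ℕ} (hK : finrank F W ≤ K) {c ε : ℝ} (hc : 0 < c) (hε : 0 < ε)
    (hcard : c * (Nat.card (Φ.on U).Iso : ℝ) ≤ Nat.card ((Φ.on U).SS K d))
    (hRB : RB ε (Φ.on W).Iso) (H : Subgroup (V ≃ₗ[F] V))
    (hnd : 4 * (ndV Φ.Iso H : ℝ) < c * min 1 ε * Nat.card Φ.Iso) :
    ∃ W' U' : Submodule F V, Φ.Dec W' U' ∧ finrank F W' = finrank F W ∧ HasOn Φ.Iso H W' U' := by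
  have hfin := finite_equiv F V
  have hfinW := finite_equiv F W
  have hfinU := finite_equiv F U
  set γ := gam h with hγ
  have hγi := gam_inj h
  let E : Set Φ.Iso := {g | ∃ a : (Φ.on W).Iso, ∃ x : (Φ.on U).Iso, (x : U ≃ₗ[F] U) ∈ (Φ.on U).SS K d ∧ g = γ (a, x)}
  have hK0 : ∀ k ∈ (γ.comp (MonoidHom.inl (Φ.on W).Iso (Φ.on U).Iso)).range, ∃ a, k = γ (a, 1) := by
    rintro _ ⟨a, rfl⟩
    exact ⟨a, rfl⟩
  obtain ⟨g, hg⟩ := htrick Φ.Iso γ.range (γ.comp (MonoidHom.inl (Φ.on W).Iso (Φ.on U).Iso)).range E c ε hc hε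
    (by
      rintro _ ⟨a, rfl⟩
      exact ⟨_, rfl⟩)
    (by
      rintro _ ⟨a, x, _, rfl⟩
      exact ⟨_, rfl⟩)
    (by
      rintro _ ⟨a, x, hx, rfl⟩ k hk
      obtain ⟨b, rfl⟩ := hK0 k hk
      refine ⟨a * b, x, hx, ?_⟩
      rw [← map_mul, Prod.mk_mul_mk, mul_one])
    (by
      rintro g _ ⟨a, x, hx, rfl⟩ ⟨a', x', hx', e⟩
      have e1 : (g : V ≃ₗ[F] V) * glue h.compl a x = glue h.compl a' x' * g := by
        have e2 : g * γ (a, x) = γ (a', x') * g := by rw [← e, inv_mul_cancel_right]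
        exact congrArg Subtype.val e2
      have h1 : W.map ((g : V ≃ₗ[F] V) : V →ₗ[F] V) ≤ W := by
        refine le_of_inv h.compl (a := (a' : W ≃ₗ[F] W)) (u := (x' : U ≃ₗ[F] U)) hx'.2.1 (K := K) ?_ ?_
        · rintro _ ⟨w, hw, rfl⟩
          refine ⟨(a : W ≃ₗ[F] W) ⟨w, hw⟩, ((a : W ≃ₗ[F] W) ⟨w, hw⟩).2, ?_⟩
          have e3 := congrArg (fun f : V ≃ₗ[F] V => f w) e1
          change (g : V ≃ₗ[F] V) (glue h.compl a x w) = glue h.compl a' x' ((g : V ≃ₗ[F] V) w) at e3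
          rw [← LinearEquiv.coe_coe, ← LinearEquiv.coe_coe] at e3 
          change _ = glue h.compl a' x' ((g : V ≃ₗ[F] V) w)
          rw [LinearEquiv.coe_coe] at e3
          rw [LinearEquiv.coe_coe, ← e3]
          exact congrArg _ (glue_left h.compl (a : W ≃ₗ[F] W) x ⟨w, hw⟩).symm
        · have h2 := LinearEquiv.finrank_map_eq (g : V ≃ₗ[F] V) W
          rw [h2]
          exact hK
      have h2 : Inv (g : V ≃ₗ[F] V) W := fun v hv => h1 ⟨v, hv, rfl⟩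
      obtain ⟨a₁, ha₁, x₁, hx₁, e⟩ := exists_glue hΦ.nd h g.2 h2
      exact ⟨(⟨a₁, ha₁⟩, ⟨x₁, hx₁⟩), Subtype.ext e.symm⟩)
    (by
      rintro _ ⟨a, x, hx, rfl⟩
      refine ⟨γ (1, x), γ (a, 1), ⟨a, rfl⟩, ?_, ?_⟩
      · intro l hl
        obtain ⟨b, rfl⟩ := hK0 l hl
        rw [← map_mul, ← map_mul, Prod.mk_mul_mk, Prod.mk_mul_mk, one_mul, one_mul, mul_one, mul_one]
      · rw [← map_mul, Prod.mk_mul_mk, one_mul, mul_one])
    (by
      have h1 : Nat.card γ.range = Nat.card (Φ.on W).Iso * Nat.card (Φ.on U).Iso := by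
        rw [← Nat.card_congr (MonoidHom.ofInjective hγi).toEquiv, Nat.card_prod]
      have h2 : Nat.card E = Nat.card (Φ.on W).Iso * Nat.card ((Φ.on U).SS K d) := by
        rw [← Nat.card_prod]
        refine (Nat.card_congr (Equiv.ofBijective (fun p : (Φ.on W).Iso × (Φ.on U).SS K d =>
          (⟨γ (p.1, ⟨p.2.1, p.2.2.1⟩), p.1, ⟨p.2.1, p.2.2.1⟩, p.2.2, rfl⟩ : E)) ⟨?_, ?_⟩)).symm
        · intro p p' e
          have e1 := hγi (congrArg Subtype.val e)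
          rw [Prod.mk.injEq] at e1
          refine Prod.ext e1.1 (Subtype.ext ?_)
          exact Subtype.mk.inj e1.2
        · rintro ⟨_, a, x, hx, rfl⟩
          exact ⟨(a, ⟨x, hx⟩), rfl⟩
      rw [h1, h2]
      push_cast
      have h3 : (0 : ℝ) ≤ Nat.card (Φ.on W).Iso := Nat.cast_nonneg _
      calc c * ((Nat.card (Φ.on W).Iso : ℝ) * Nat.card (Φ.on U).Iso)
          = Nat.card (Φ.on W).Iso * (c * Nat.card (Φ.on U).Iso) := by ring
        _ ≤ _ := mul_le_mul_of_nonneg_left hcard h3)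
    (by
      refine H2.Bs.rb_congr (MonoidHom.ofInjective (f := γ.comp (MonoidHom.inl (Φ.on W).Iso (Φ.on U).Iso)) ?_) hRB
      exact hγi.comp (Prod.mk_left_injective _))
    (H.subgroupOf Φ.Iso) (by rw [← ndV_eq]; exact hnd)
  have hginv : ∀ v, (g : V ≃ₗ[F] V) ((g : V ≃ₗ[F] V)⁻¹ v) = v := fun v => LinearEquiv.apply_symm_apply _ v
  have hginv' : ∀ v, (g : V ≃ₗ[F] V)⁻¹ ((g : V ≃ₗ[F] V) v) = v := fun v => LinearEquiv.symm_apply_apply _ v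
  refine ⟨W.map ((g : V ≃ₗ[F] V) : V →ₗ[F] V), U.map ((g : V ≃ₗ[F] V) : V →ₗ[F] V), ⟨?_, ?_⟩, ?_, ?_⟩
  · exact h.compl.map (Submodule.orderIsoMapComap (g : V ≃ₗ[F] V))
  · rintro _ ⟨w, hw, rfl⟩ _ ⟨x, hx, rfl⟩
    change Φ.B ((g : V ≃ₗ[F] V) w) ((g : V ≃ₗ[F] V) x) = 0
    rw [g.2.1]
    exact h.orth w hw x hx
  · rw [LinearEquiv.finrank_map_eq (g : V ≃ₗ[F] V) W]
  · intro t ht hW' hU'
    set s : V ≃ₗ[F] V := (g : V ≃ₗ[F] V)⁻¹ * t * g with hs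
    have hsv : ∀ v, s v = (g : V ≃ₗ[F] V)⁻¹ (t ((g : V ≃ₗ[F] V) v)) := fun v => rfl
    have hsI : s ∈ Φ.Iso := mul_mem (mul_mem (inv_mem g.2) ht) g.2
    have hsW : Inv s W := by
      intro w hw
      obtain ⟨w', hw', e⟩ := hW' _ ⟨w, hw, rfl⟩
      rw [hsv]
      change (g : V ≃ₗ[F] V) w' = t ((g : V ≃ₗ[F] V) w) at e
      rw [← e, hginv']
      exact hw'
    obtain ⟨a, ha, y, hy, e⟩ := exists_glue hΦ.nd h hsI hsW
    have hy1 : y = 1 := by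
      ext x
      have h1 : s (x : V) = x := by
        have h2 : t ((g : V ≃ₗ[F] V) x) = (g : V ≃ₗ[F] V) x := hU' _ ⟨x, x.2, rfl⟩
        rw [hsv, h2]
        exact hginv' _
      rw [e, glue_right] at h1
      exact h1
    have h1 := hg (γ (⟨a, ha⟩, 1)) ⟨⟨a, ha⟩, rfl⟩
    rw [Subgroup.mem_subgroupOf] at h1
    have h2 : ((g * γ (⟨a, ha⟩, 1) * g⁻¹ : Φ.Iso) : V ≃ₗ[F] V) = t := by
      have h3 : ((γ (⟨a, ha⟩, 1) : Φ.Iso) : V ≃ₗ[F] V) = s := by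
        rw [e, hy1]
        rfl
      rw [Subgroup.coe_mul, Subgroup.coe_mul, h3, hs, Subgroup.coe_inv]
      group
    rwa [h2] at h1

end core

theorem s21 : S21 := by
  rintro ⟨ε, hε, h2⟩
  obtain ⟨c, hc, K₀, h1⟩ := H59.Bs.s10
  set K := max K₀ 4 with hK
  set c' : ℝ := c / (K + 1) with hc'
  have hc'0 : 0 < c' := by positivity
  refine ⟨c' * min 1 ε / 4, by positivity, 2 * K + 6, fun F V _ _ _ _ _ Φ hΦ hn H _ hH => ?_⟩
  obtain ⟨W, U, h, hW⟩ := H181.Bs.exists_dec hΦ 2 (by omega)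
  obtain ⟨n, hn'⟩ := even_finrank (isSp_right hΦ h)
  have h3 := finrank_dec h
  obtain ⟨W', U', h5, h6, h7⟩ := core4 hΦ trickP h (K := K) (d := 2 * n) (by rw [hW]; exact le_max_right _ _) hc'0 hε
    (h1 F U (Φ.on U) n K (isSp_right hΦ h) (le_max_left _ _) hn' (by omega)) (h2 F W (Φ.on W) (isSp_left hΦ h) hW) H
    (by linarith)
  exact ⟨W', U', h5, by rw [h6, hW], h7⟩

end Cfsg.Agent.H548.BS
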