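import Cfsg.Agent.H548.BS.Fin
import Cfsg.Agent.H548.BS.S21
import Cfsg.Agent.H548.BS.Main
import Cfsg.Agent.H978.Bs.S11
import Cfsg.Agent.H42.Bs.S35
import Cfsg.Agent.H380.Bs.Stmt
import Cfsg.Agent.H765.Bs.S23Of

/-!
# S5733: the rows, second part
-/

set_option autoImplicit false

namespace Cfsg.Agent.H548.BS

open Module Cfsg.Agent.H851.Dg Cfsg.Agent.H847.Bs
open QuadraticMap Cfsg.Agent.LieClassical.OrthCore

theorem s22 : S22 := s22_of H978.Bs.s11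

theorem s26 : S26 := s26_of H978.Bs.s11

theorem s28u : S28u := s28u_of H978.Bs.s11

theorem row_sp' (h0 : S40s) : RowSp := row_sp h0 s21 H24.Bs.s31 H42.Bs.s35s s25 s28s

theorem row_su' (h0 : S40u) : RowSU := row_su h0 s22 s32 H42.Bs.s35u s26 s28u

theorem row_om' (h0 : S40o) (h12 : S12) (hM : H380.Bs.CountMinus) (hA : H380.Bs.CountAdj) {j : ℕ} (hj : 10 ≤ j)
    {c₁ : ℝ} (hc₁ : 0 < c₁) (h1 : H765.Bs.OPlus j c₁) (h2 : H765.Bs.OAdj j c₁) (hQ : H42.Bs.QuadMinus.{0, 0}) : RowOm :=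
  row_om h0 (H765.Bs.s23_of hj hc₁ h1 h2 h12) s33 (H42.Bs.blocks_omega_of hQ) (H380.Bs.s27_of h12 hM hA)
    (H380.Bs.s28o_of h12 hM hA)

end Cfsg.Agent.H548.BS
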