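import Cfsg.Agent.H548.BS.Fin3
import Cfsg.Agent.H548.BS.SLTwo

/-!
# S5733: from the rows of bounded rank
-/

set_option autoImplicit false

namespace Cfsg.Agent.H548.BS

open Cfsg.Agent.H847.Bs

theorem fam_of (hB : BdRow) (hE : ExcRow) (hu : S40u) (ho : S40o) : FamS fun _ => True :=
  fam_all (row_sl_two (base_two hB)) (row_sp' (H358.Bs.s40s hB)) (row_su' hu) (row_om'' ho)
    (fun d => (hB d).toS) hE.toS

end Cfsg.Agent.H548.BS
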